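import Cfsg.Agent.Lib.AutPSp.Graph
import Cfsg.Agent.S0247

/-!
# Centralisers of field automorphisms and the `p'`-core
-/

set_option autoImplicit false

namespace Cfsg.Agent.Lib.AutPSp

open Matrix Cfsg.Agent.Lib.SpBasic Cfsg.Agent.Lib.Hilbert90
open scoped MatrixGroups

variable {F : Type*} [Field F] {m : ℕ}

/-- Automorphisms preserving root groups. -/
def IsRootPres (β : MulAut (Cfsg.PSp m F)) : Prop :=
  ∀ v : Fin m ⊕ Fin m → F, v ≠ 0 → ∃ w : Fin m ⊕ Fin m → F, w ≠ 0 ∧ ∀ c : F, ∃ a : F, β (tb v c) = tb w a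

/-- Automorphisms mapping long root groups into short ones. -/
def IsTypeB (hm : 2 ≤ m) (β : MulAut (Cfsg.PSp m F)) : Prop :=
  ∀ v : Fin m ⊕ Fin m → F, v ≠ 0 → ∃ g : Sp (Fin m) F, ∀ c : F, ∃ b : F, β (tb v c) =
    (QuotientGroup.mk g : Cfsg.PSp m F) * sb (eL ⟨0, by omega⟩) (eL ⟨1, by omega⟩) b * (QuotientGroup.mk g)⁻¹

lemma root_or_B [Fintype F] (hm : 2 ≤ m) (β : MulAut (Cfsg.PSp m F)) :
    IsRootPres β ∨ ((2 : F) = 0 ∧ IsTypeB hm β) := by
  classical
  obtain ⟨p, hpc⟩ := CharP.exists F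
  obtain ⟨n, hp, hn⟩ := FiniteField.card F p
  haveI : Fact p.Prime := ⟨hp⟩
  have hn1 : 1 ≤ (n : ℕ) := n.2
  by_cases hex : m = 2 ∧ p = 2
  · obtain ⟨-, rfl⟩ := hex
    have h2 : (2 : F) = 0 := by
      have := CharP.cast_eq_zero F 2
      exact_mod_cast this
    rcases dich hn1 hn h2 hm β with hr | hB
    · exact Or.inl hr
    · exact Or.inr ⟨h2, hB⟩
  · push Not at hex
    exact Or.inl (fun v hv => root_map hn1 hn hm hex β hv)

lemma exists_gs_of_root [Finite F] [NeZero m] (hm : 2 ≤ m) {β : MulAut (Cfsg.PSp m F)} (h : IsRootPres β) :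
    ∃ (G : GS m F) (τ : F ≃+* F), β = gsAut G τ := by
  obtain ⟨G, τ, hG, hGi⟩ := exists_induced_of_root hm β h
  exact ⟨⟨G, hG⟩, τ, (isInduced_iff ⟨G, hG⟩ τ β).mp hGi⟩

/-- Automorphisms of prime order different from the characteristic are standard. -/
lemma mem_gamma_of_prime_order [Fintype F] [NeZero m] (hm : 2 ≤ m) {x : MulAut (Cfsg.PSp m F)} {p : ℕ} (hp : p.Prime)
    (hord : orderOf x = p) (h2p : (2 : F) = 0 → p ≠ 2) :
    ∃ (G : GS m F) (τ : F ≃+* F), x = gsAut G τ := by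
  rcases root_or_B hm x with hr | ⟨h2, hB⟩
  · exact exists_gs_of_root hm hr
  · rcases root_or_B hm x⁻¹ with hr' | ⟨-, hB'⟩
    · obtain ⟨G, τ, h⟩ := exists_gs_of_root hm hr'
      refine ⟨glS τ.symm G⁻¹, τ.symm, ?_⟩
      rw [← inv_inv x, h]
      exact gsAut_inv G τ
    · obtain ⟨G, τ, hG, hGi⟩ := exists_induced_of_root hm (x⁻¹⁻¹ * x : MulAut (Cfsg.PSp m F))
        (root_of_two_B hm x⁻¹ x hB' hB)
      have h1 := (isInduced_iff ⟨G, hG⟩ τ _).mp hGi
      rw [inv_inv] at h1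
      have hodd : Odd p := hp.odd_of_ne_two (h2p h2)
      obtain ⟨k, hk⟩ := hodd
      have h3 : x = (x * x) ^ (k + 1) := by
        have h4 : x ^ p = 1 := by rw [← hord]; exact pow_orderOf_eq_one x
        rw [← pow_two, ← pow_mul, hk] at *
        have h5 : x ^ (2 * (k + 1)) = x ^ (2 * k + 1) * x := by
          rw [← pow_succ]
          congr 1
        rw [h5, h4, one_mul]
      rw [h3, h1, gsAut_pow]
      exact ⟨_, _, rfl⟩

/-! ### Extension of scalars -/

section Scalars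

variable {k : Type*} [Field k]

/-- Extension of scalars for symplectic matrices. -/
noncomputable def mapSp (ι : k →+* F) : Sp (Fin m) k →* Sp (Fin m) F where
  toFun s := ⟨s.1.map ι, SymplecticGroup.map_mem s.2 ι⟩
  map_one' := by
    apply Subtype.ext
    exact Matrix.map_one _ (map_zero ι) (map_one ι)
  map_mul' s t := by
    apply Subtype.ext
    exact Matrix.map_mul

lemma mapSp_coe (ι : k →+* F) (s : Sp (Fin m) k) : (mapSp ι s).1 = s.1.map ι := rfl

lemma mapSp_injective (ι : k →+* F) : Function.Injective (mapSp ι : Sp (Fin m) k →* Sp (Fin m) F) := by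
  intro s t h
  apply Subtype.ext
  exact Matrix.map_injective ι.injective (congrArg Subtype.val h)

lemma mapSp_negOne (ι : k →+* F) :
    mapSp ι (Cfsg.Agent.Lib.SpCenter.negOne : Sp (Fin m) k) = Cfsg.Agent.Lib.SpCenter.negOne := by
  apply Subtype.ext
  change (-1 : Matrix _ _ k).map ι = -1
  ext i j
  by_cases hij : i = j
  · subst hij
    simp
  · simp [hij]

/-- The image of `Sp(k)` in `PSp(F)`. -/
noncomputable def rho (ι : k →+* F) : Sp (Fin m) k →* Cfsg.PSp m F :=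
  (QuotientGroup.mk' _).comp (mapSp ι)

lemma rho_apply (ι : k →+* F) (s : Sp (Fin m) k) : rho ι s = QuotientGroup.mk (mapSp ι s) := rfl

lemma rho_eq_one_iff [NeZero m] (ι : k →+* F) (s : Sp (Fin m) k) :
    rho ι s = 1 ↔ s ∈ Subgroup.center (Sp (Fin m) k) := by
  haveI : Nonempty (Fin m) := ⟨0⟩
  rw [rho_apply, QuotientGroup.eq_one_iff, Cfsg.Agent.Lib.SpCenter.mem_center_iff, Cfsg.Agent.Lib.SpCenter.mem_center_iff]
  constructor
  · rintro (h | h)
    · left
      apply mapSp_injective ι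
      rw [h, map_one]
    · right
      apply mapSp_injective ι
      rw [h, mapSp_negOne]
  · rintro (rfl | rfl)
    · left
      exact map_one _
    · right
      exact mapSp_negOne ι

/-- The induced map of projective groups. -/
noncomputable def fSp [NeZero m] (ι : k →+* F) : Cfsg.PSp m k →* Cfsg.PSp m F :=
  QuotientGroup.lift _ (rho ι) (fun s hs => (rho_eq_one_iff ι s).mpr hs)

lemma fSp_mk [NeZero m] (ι : k →+* F) (s : Sp (Fin m) k) : fSp ι (QuotientGroup.mk s) = rho ι s := rfl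

lemma fSp_injective [NeZero m] (ι : k →+* F) : Function.Injective (fSp ι : Cfsg.PSp m k →* Cfsg.PSp m F) := by
  rw [injective_iff_map_eq_one]
  intro x hx
  obtain ⟨s, rfl⟩ := QuotientGroup.mk_surjective x
  rw [fSp_mk, rho_eq_one_iff] at hx
  exact (QuotientGroup.eq_one_iff _).mpr hx

end Scalars

lemma faS_mk (σ : F ≃+* F) (s : Sp (Fin m) F) :
    (faS σ : MulAut (Cfsg.PSp m F)) (QuotientGroup.mk s) = QuotientGroup.mk (fieldSp σ s) := by
  rw [gsAut_mk]
  congr 1
  apply sp_ext'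
  rw [spMap_coe, fieldSp_coe]
  have h1 : ((1 : GS m F)⁻¹).1.1 = 1 := by
    rw [inv_one]
    rfl
  rw [h1]
  change (1 : Matrix (Fin m ⊕ Fin m) (Fin m ⊕ Fin m) F) * _ * 1 = _
  rw [Matrix.one_mul, Matrix.mul_one]

/-- Symplectic matrices with fixed entries come from the fixed field. -/
lemma exists_of_fixed (σ : F ≃+* F) (s : Sp (Fin m) F) (h : fieldSp σ s = s) :
    ∃ s₀ : Sp (Fin m) (fixedF σ), mapSp (fixedF σ).subtype s₀ = s := by
  have hfix : ∀ i j, s.1 i j ∈ fixedF σ := by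
    intro i j
    have h1 := congrArg (fun g : Sp (Fin m) F => g.1 i j) h
    exact h1
  let M : Matrix (Fin m ⊕ Fin m) (Fin m ⊕ Fin m) (fixedF σ) := fun i j => ⟨s.1 i j, hfix i j⟩
  have hM : M.map (fixedF σ).subtype = s.1 := by
    ext i j
    rfl
  have hmem : M ∈ symplecticGroup (Fin m) (fixedF σ) := by
    rw [SymplecticGroup.mem_iff]
    apply Matrix.map_injective (fixedF σ).subtype.injective
    change (M * J (Fin m) (fixedF σ) * Mᵀ).map (fixedF σ).subtype = (J (Fin m) (fixedF σ)).map (fixedF σ).subtype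
    rw [Matrix.map_mul, Matrix.map_mul, Matrix.transpose_map, hM, Matrix.map_J]
    exact SymplecticGroup.mem_iff.mp s.2
  exact ⟨⟨M, hmem⟩, Subtype.ext hM⟩

lemma fieldSp_mapSp (σ : F ≃+* F) (s₀ : Sp (Fin m) (fixedF σ)) :
    fieldSp σ (mapSp (fixedF σ).subtype s₀) = mapSp (fixedF σ).subtype s₀ := by
  apply Subtype.ext
  rw [fieldSp_coe, mapSp_coe]
  ext i j
  exact (s₀.1 i j).2

lemma pow_eq_one_of_fix [Fintype F] (σ τ : F ≃+* F) {p : ℕ} (hord : orderOf σ = p)
    (h : ∀ a ∈ fixedF σ, τ a = a) : τ ^ p = 1 := by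
  classical
  have hcard : Nat.card F = Nat.card (fixedF σ) ^ p := card_eq_card_fixedF_pow σ hord
  haveI : Fintype (fixedF σ) := Fintype.ofFinite _
  have h1 : Module.finrank (fixedF σ) F = p := by
    have h2 := Module.card_eq_pow_finrank (K := fixedF σ) (V := F)
    rw [Nat.card_eq_fintype_card, Nat.card_eq_fintype_card] at hcard
    rw [hcard] at h2
    have h3 : 1 < Fintype.card (fixedF σ) := Fintype.one_lt_card
    exact (Nat.pow_right_injective h3 h2).symm
  have h2 : Nat.card (F ≃ₐ[fixedF σ] F) = p := by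
    rw [← h1]
    exact IsGalois.card_aut_eq_finrank _ _
  let τ' : F ≃ₐ[fixedF σ] F := AlgEquiv.ofRingEquiv (f := τ) (fun a => h a.1 a.2)
  have h3 : τ' ^ p = 1 := by
    rw [← h2]
    exact pow_card_eq_one'
  have h4 : ∀ (n : ℕ) (x : F), (τ' ^ n) x = (τ ^ n) x := by
    intro n
    induction n with
    | zero =>
      intro x
      rfl
    | succ n ih =>
      intro x
      rw [pow_succ, pow_succ]
      change (τ' ^ n) (τ' x) = (τ ^ n) (τ x)
      rw [ih]
      rfl
  ext x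
  rw [← h4, h3]
  rfl

lemma mapSp_T {k : Type*} [Field k] (ι : k →+* F) (v₀ : Fin m ⊕ Fin m → k) (c₀ : k) :
    mapSp ι (T v₀ c₀) = T (ι ∘ v₀) (ι c₀) := by
  apply Sp_ext
  intro x
  rw [T_smul]
  have h1 : ∀ y : Fin m ⊕ Fin m → k, ω (ι ∘ v₀) (ι ∘ y) = ι (ω v₀ y) := by
    intro y
    simp [ω_apply, map_sum]
  -- compare the matrices
  have hM : (mapSp ι (T v₀ c₀)).1 = tMat (ι ∘ v₀) (ι c₀) := by
    rw [mapSp_coe]
    apply Matrix.ext
    intro i j
    have e1 := congrFun (tMat_mulVec v₀ c₀ (Pi.single j 1)) i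
    have e2 := congrFun (tMat_mulVec (ι ∘ v₀) (ι c₀) (Pi.single j 1)) i
    rw [Matrix.mulVec_single_one] at e1 e2
    simp only [Matrix.col_apply, Pi.add_apply, Pi.smul_apply, smul_eq_mul] at e1 e2
    have e3 : (T v₀ c₀).1 i j = tMat v₀ c₀ i j := rfl
    rw [Matrix.map_apply, e3, e1, e2, map_add, map_mul, map_mul, ← h1]
    have e4 : ι ∘ (Pi.single j 1 : Fin m ⊕ Fin m → k) = Pi.single j 1 := by
      ext a
      by_cases ha : a = j
      · subst ha
        simp
      · simp [ha]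
    rw [e4]
    congr 1
    exact congrFun e4 i
  rw [Sp_smul_def, hM, tMat_mulVec]

/-- An automorphism fixing the image of `Sp(F₀)` pointwise is a field automorphism, trivial on `F₀`. -/
theorem cent_lemma [Fintype F] [NeZero m] (hm : 2 ≤ m) (σ : F ≃+* F) (β : MulAut (Cfsg.PSp m F))
    (hβ : ∀ s₀ : Sp (Fin m) (fixedF σ), β (rho (fixedF σ).subtype s₀) = rho (fixedF σ).subtype s₀) :
    ∃ τ : F ≃+* F, β = faS τ ∧ ∀ a ∈ fixedF σ, τ a = a := by
  classical
  have hm1 : 1 ≤ m := by omega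
  have hT : ∀ v : Fin m ⊕ Fin m → F, (∀ i, v i ∈ fixedF σ) → β (tb v 1) = tb v 1 := by
    intro v hv
    have h1 := hβ (T (fun i => ⟨v i, hv i⟩) 1)
    rw [rho_apply, mapSp_T, map_one] at h1
    exact h1
  rcases root_or_B hm β with hr | ⟨h2, hB⟩
  · obtain ⟨G, τ, rfl⟩ := exists_gs_of_root hm hr
    have hpar : ∀ v : Fin m ⊕ Fin m → F, (∀ i, v i ∈ fixedF σ) → v ≠ 0 → ∃ l : F, l ≠ 0 ∧ G.1.1 *ᵥ fm τ v = l • v := by
      intro v hv hv0
      have h1 := hT v hv
      rw [gsAut_tb] at h1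
      obtain ⟨l, hl, hle⟩ := tb_eq_tb hm one_ne_zero hv0 h1
      exact ⟨l, hl, hle⟩
    have hS : ∀ k : Fin m ⊕ Fin m, (Pi.single k 1 : Fin m ⊕ Fin m → F) ≠ 0 := by
      intro k h0
      have := congrFun h0 k
      simp at this
    have hSf : ∀ k i : Fin m ⊕ Fin m, (Pi.single k 1 : Fin m ⊕ Fin m → F) i ∈ fixedF σ := by
      intro k i
      by_cases h : i = k
      · subst h
        simp [mem_fixedF]
      · simp [h, Pi.single_apply, mem_fixedF]
    have hei : ∀ k : Fin m ⊕ Fin m, ∃ c : F, c ≠ 0 ∧ G.1.1 *ᵥ (Pi.single k 1) = c • Pi.single k 1 := by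
      intro k
      obtain ⟨c, hc, h1⟩ := hpar _ (hSf k) (hS k)
      rw [fm_single] at h1
      exact ⟨c, hc, h1⟩
    choose c hc hce using hei
    have hcij : ∀ i j : Fin m ⊕ Fin m, i ≠ j → c i = c j := by
      intro i j hij
      have h0 : (Pi.single i 1 + Pi.single j 1 : Fin m ⊕ Fin m → F) ≠ 0 := by
        intro h1
        have := congrFun h1 i
        simp [hij, Pi.single_apply] at this
      obtain ⟨d, hd, h1⟩ := hpar (Pi.single i 1 + Pi.single j 1) (fun a => add_mem (hSf i a) (hSf j a)) h0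
      have h2 : fm τ (Pi.single i 1 + Pi.single j 1 : Fin m ⊕ Fin m → F) = Pi.single i 1 + Pi.single j 1 := by
        ext k
        have e1 := congrFun (fm_single τ i) k
        have e2 := congrFun (fm_single τ j) k
        simp only [fm] at e1 e2
        simp only [fm, Pi.add_apply, map_add, e1, e2]
      rw [h2, mulVec_add, hce, hce] at h1
      have e1 := congrFun h1 i
      have e2 := congrFun h1 j
      simp [Pi.single_apply, hij, hij.symm] at e1 e2
      rw [e1, e2]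
    set k₀ : Fin m ⊕ Fin m := Sum.inl 0 with hk₀
    have hcc : ∀ i, c i = c k₀ := by
      intro i
      by_cases hi : i = k₀
      · rw [hi]
      · exact hcij _ _ hi
    have hg : G.1.1 = c k₀ • (1 : Matrix (Fin m ⊕ Fin m) (Fin m ⊕ Fin m) F) := by
      ext i j
      have h1 := congrFun (hce j) i
      rw [Matrix.mulVec_single_one] at h1
      rw [hcc j] at h1
      have h2 : G.1.1 i j = (c k₀ • (Pi.single j 1 : Fin m ⊕ Fin m → F)) i := h1
      rw [h2]
      simp [Matrix.one_apply, Pi.single_apply]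
    have hG : G = 1 * scS (Units.mk0 (c k₀) (hc k₀)) := by
      apply Subtype.ext
      apply Units.ext
      rw [one_mul]
      change G.1.1 = (scS _ : GS m F).1.1
      rw [hg, scS_coe]
      rfl
    refine ⟨τ, ?_, ?_⟩
    · rw [hG, gsAut_scS_mul]
    · intro a ha
      have hne : k₀ ≠ Sum.inr 0 := by simp [hk₀]
      have h0 : (Pi.single k₀ 1 + a • Pi.single (Sum.inr 0) 1 : Fin m ⊕ Fin m → F) ≠ 0 := by
        intro h1
        have := congrFun h1 k₀
        simp [Pi.single_apply, hne] at this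
      obtain ⟨d, hd, h1⟩ := hpar (Pi.single k₀ 1 + a • Pi.single (Sum.inr 0) 1) (fun i => add_mem (hSf k₀ i) (mul_mem ha (hSf _ i))) h0
      rw [hg, smul_mulVec, one_mulVec] at h1
      have e1 := congrFun h1 k₀
      have e2 := congrFun h1 (Sum.inr 0)
      simp [Pi.single_apply, hne, hne.symm, fm] at e1 e2
      have h3 : c k₀ * τ a = c k₀ * a := by
        rw [e2, ← e1]
      exact mul_left_cancel₀ (hc k₀) h3
  · exfalso
    set e₀ : Fin m ⊕ Fin m → F := eL ⟨0, by omega⟩ with he₀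
    set e₁ : Fin m ⊕ Fin m → F := eL ⟨1, by omega⟩ with he₁
    have he00 : e₀ ≠ 0 := eL_ne
    have he10 : e₁ ≠ 0 := eL_ne
    have hw01 : ω e₀ e₁ = 0 := by rw [he₁, ω_eL_right]; exact eL_inr _ _
    obtain ⟨g, hg⟩ := hB e₀ he00
    obtain ⟨b, hb⟩ := hg 1
    have h1 := hT e₀ (by
      intro i
      by_cases h : i = Sum.inl ⟨0, by omega⟩
      · subst h
        simp [he₀, mem_fixedF]
      · simp [he₀, h, Pi.single_apply, mem_fixedF])
    rw [hb] at h1
    have h3 : (QuotientGroup.mk (g * Es e₀ e₁ b * g⁻¹) : Cfsg.PSp m F) = QuotientGroup.mk (T e₀ 1) := by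
      rw [QuotientGroup.mk_mul, QuotientGroup.mk_mul, QuotientGroup.mk_inv]
      exact h1
    have h4 : g * Es e₀ e₁ b * g⁻¹ = T e₀ 1 := by
      have h5 := QuotientGroup.eq.mp h3
      have h6 := eq_one_of_center h2 hm1 h5
      exact inv_mul_eq_one.mp h6
    set i₀ : Fin m := ⟨0, by omega⟩ with hi₀
    set i₁ : Fin m := ⟨1, by omega⟩ with hi₁
    have h01 : i₀ ≠ i₁ := by simp [hi₀, hi₁, Fin.ext_iff]
    have hneg : ∀ t : F, - t = t := fun t => by linear_combination (- t) * h2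
    have hact : ∀ y : Fin m ⊕ Fin m → F, ω e₀ (g • y) • e₀ = b • (ω e₀ y • (g • e₁) + ω e₁ y • (g • e₀)) := by
      intro y
      have h5 : (g * Es e₀ e₁ b * g⁻¹) • (g • y) = T e₀ 1 • (g • y) := by rw [h4]
      rw [mul_smul, mul_smul, inv_smul_smul, Es_smul h2 hw01, T_smul, smul_add] at h5
      have h6 := add_left_cancel h5
      rw [one_mul] at h6
      rw [← h6, smul_comm g b, smul_add g, smul_comm g (ω e₀ y) e₁, smul_comm g (ω e₁ y) e₀]
    have hb0 : b ≠ 0 := by
      rintro rfl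
      have h5 : Es e₀ e₁ 0 = 1 := by
        apply Sp_ext
        intro x
        rw [Es_smul h2 hw01, zero_smul, add_zero, one_smul]
      rw [h5, mul_one, mul_inv_cancel] at h4
      exact T_ne_one he00 one_ne_zero h4.symm
    have w0 : ω e₀ (eR i₀ : Fin m ⊕ Fin m → F) = 1 := by
      rw [ω_eR_right, he₀, eL_inl_same, hneg]
    have w1 : ω e₁ (eR i₀ : Fin m ⊕ Fin m → F) = 0 := by
      rw [ω_eR_right, he₁, eL_inl_ne h01, neg_zero]
    have w2 : ω e₀ (eR i₁ : Fin m ⊕ Fin m → F) = 0 := by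
      rw [ω_eR_right, he₀, eL_inl_ne h01.symm, neg_zero]
    have w3 : ω e₁ (eR i₁ : Fin m ⊕ Fin m → F) = 1 := by
      rw [ω_eR_right, he₁, eL_inl_same, hneg]
    have a1 := hact (eR i₀)
    have a2 := hact (eR i₁)
    rw [w0, w1, one_smul, zero_smul, add_zero] at a1
    rw [w2, w3, one_smul, zero_smul, zero_add] at a2
    set A := ω e₀ (g • (eR i₀ : Fin m ⊕ Fin m → F))
    set A' := ω e₀ (g • (eR i₁ : Fin m ⊕ Fin m → F))
    have a3 : g • e₁ = (b⁻¹ * A) • e₀ := by
      rw [mul_smul, a1, smul_smul, inv_mul_cancel₀ hb0, one_smul]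
    have a4 : g • e₀ = (b⁻¹ * A') • e₀ := by
      rw [mul_smul, a2, smul_smul, inv_mul_cancel₀ hb0, one_smul]
    set l := b⁻¹ * A' with hl
    set μ := b⁻¹ * A with hμ
    have hl0 : l ≠ 0 := by
      intro h0
      rw [h0, zero_smul] at a4
      apply he00
      have := congrArg (fun x => g⁻¹ • x) a4
      simpa using this
    have a5 : g • (l • e₁ - μ • e₀) = 0 := by
      rw [smul_sub, smul_comm g l, smul_comm g μ, a3, a4, smul_smul, smul_smul, mul_comm, sub_self]
    have a6 : l • e₁ - μ • e₀ = 0 := by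
      have := congrArg (fun x => g⁻¹ • x) a5
      simpa using this
    have a7 := congrFun a6 (Sum.inl i₁)
    simp only [Pi.sub_apply, Pi.smul_apply, smul_eq_mul, he₁, he₀, eL_inl_same, eL_inl_ne h01.symm, mul_one, mul_zero, sub_zero,
      Pi.zero_apply] at a7
    exact hl0 a7

/-! ### Normal subgroups in the centraliser -/

section Core

variable [Fintype F] [NeZero m]

/-- The fixed points of `faS σ`. -/
abbrev fixL (x : MulAut (Cfsg.PSp m F)) : Subgroup (Cfsg.PSp m F) := MonoidHom.eqLocus x.toMonoidHom (MonoidHom.id _)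

lemma mem_fixL {x : MulAut (Cfsg.PSp m F)} {k : Cfsg.PSp m F} : k ∈ fixL x ↔ x k = k := Iff.rfl

lemma rho_mem_fixL (σ : F ≃+* F) (s₀ : Sp (Fin m) (fixedF σ)) : rho (fixedF σ).subtype s₀ ∈ fixL (faS σ : MulAut (Cfsg.PSp m F)) := by
  rw [mem_fixL, rho_apply, faS_mk, fieldSp_mapSp]

/-- A lift of a fixed point is fixed up to a central element. -/
lemma fixL_lift (σ : F ≃+* F) {s : Sp (Fin m) F} (h : (QuotientGroup.mk s : Cfsg.PSp m F) ∈ fixL (faS σ : MulAut (Cfsg.PSp m F))) :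
    ∃ z ∈ Subgroup.center (Sp (Fin m) F), fieldSp σ s = s * z ∧ z * z = 1 := by
  haveI : Nonempty (Fin m) := ⟨0⟩
  rw [mem_fixL, faS_mk] at h
  have h1 := QuotientGroup.eq.mp h.symm
  refine ⟨s⁻¹ * fieldSp σ s, h1, by group, ?_⟩
  rcases Cfsg.Agent.Lib.SpCenter.mem_center_iff.mp h1 with h2 | h2
  · rw [h2, one_mul]
  · rw [h2]
    apply Subtype.ext
    change (-1 : Matrix _ _ F) * (-1) = 1
    simp

lemma mem_range_rho_of_fixed (σ : F ≃+* F) (s : Sp (Fin m) F) (h : fieldSp σ s = s) :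
    (QuotientGroup.mk s : Cfsg.PSp m F) ∈ (rho (fixedF σ).subtype : Sp (Fin m) (fixedF σ) →* Cfsg.PSp m F).range := by
  obtain ⟨s₀, rfl⟩ := exists_of_fixed σ s h
  exact ⟨s₀, rfl⟩

lemma range_rho_normal (σ : F ≃+* F) {k e : Cfsg.PSp m F} (hk : k ∈ fixL (faS σ : MulAut (Cfsg.PSp m F)))
    (he : e ∈ (rho (fixedF σ).subtype : Sp (Fin m) (fixedF σ) →* Cfsg.PSp m F).range) :
    k * e * k⁻¹ ∈ (rho (fixedF σ).subtype : Sp (Fin m) (fixedF σ) →* Cfsg.PSp m F).range := by
  obtain ⟨s, rfl⟩ := QuotientGroup.mk_surjective k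
  obtain ⟨s₀, rfl⟩ := he
  obtain ⟨z, hz, hs, -⟩ := fixL_lift σ hk
  have e1 : (QuotientGroup.mk s : Cfsg.PSp m F) * rho (fixedF σ).subtype s₀ * (QuotientGroup.mk s)⁻¹ =
      QuotientGroup.mk (s * mapSp (fixedF σ).subtype s₀ * s⁻¹) := by
    rw [rho_apply, QuotientGroup.mk_mul, QuotientGroup.mk_mul, QuotientGroup.mk_inv]
  rw [e1]
  apply mem_range_rho_of_fixed
  rw [map_mul, map_mul, map_inv, fieldSp_mapSp, hs]
  have h1 := (Subgroup.mem_center_iff.mp hz) (mapSp (fixedF σ).subtype s₀)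
  calc s * z * mapSp (fixedF σ).subtype s₀ * (s * z)⁻¹ = s * (z * mapSp (fixedF σ).subtype s₀) * z⁻¹ * s⁻¹ := by group
    _ = s * (mapSp (fixedF σ).subtype s₀ * z) * z⁻¹ * s⁻¹ := by rw [h1]
    _ = _ := by group

lemma sq_mem_range_rho (σ : F ≃+* F) {k : Cfsg.PSp m F} (hk : k ∈ fixL (faS σ : MulAut (Cfsg.PSp m F))) :
    k * k ∈ (rho (fixedF σ).subtype : Sp (Fin m) (fixedF σ) →* Cfsg.PSp m F).range := by
  obtain ⟨s, rfl⟩ := QuotientGroup.mk_surjective k
  obtain ⟨z, hz, hs, hz2⟩ := fixL_lift σ hk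
  rw [← QuotientGroup.mk_mul]
  apply mem_range_rho_of_fixed
  rw [map_mul, hs]
  have h1 := (Subgroup.mem_center_iff.mp hz) s
  calc s * z * (s * z) = s * (z * s) * z := by group
    _ = s * (s * z) * z := by rw [h1]
    _ = s * s * (z * z) := by group
    _ = _ := by rw [hz2, mul_one]

/-- An element of order `p` in the image of `Sp(F₀)`. -/
lemma exists_order_p (σ : F ≃+* F) {p : ℕ} [hp : Fact p.Prime]
    (hdvd : p ∣ Nat.card (fixL (faS σ : MulAut (Cfsg.PSp m F)))) :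
    ∃ e ∈ (rho (fixedF σ).subtype : Sp (Fin m) (fixedF σ) →* Cfsg.PSp m F).range, orderOf e = p := by
  classical
  haveI : Nonempty (Fin m) := ⟨0⟩
  by_cases hp2 : p = 2
  · subst hp2
    let J₀ : Sp (Fin m) (fixedF σ) := ⟨J (Fin m) (fixedF σ), SymplecticGroup.J_mem _ _⟩
    refine ⟨rho (fixedF σ).subtype J₀, ⟨J₀, rfl⟩, ?_⟩
    apply orderOf_eq_prime
    · rw [pow_two, ← map_mul, rho_eq_one_iff, Cfsg.Agent.Lib.SpCenter.mem_center_iff]
      right
      apply Subtype.ext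
      exact Matrix.J_squared _ _
    · rw [Ne, rho_eq_one_iff, Cfsg.Agent.Lib.SpCenter.mem_center_iff]
      have hne : (J (Fin m) (fixedF σ)) (Sum.inl 0) (Sum.inr 0) = -1 := by
        simp [J]
      rintro (h | h)
      · have h1 := congrArg (fun g : Sp (Fin m) (fixedF σ) => g.1 (Sum.inl 0) (Sum.inr 0)) h
        have h2 : J (Fin m) (fixedF σ) (Sum.inl 0) (Sum.inr 0) = (1 : Matrix (Fin m ⊕ Fin m) (Fin m ⊕ Fin m) (fixedF σ)) (Sum.inl 0) (Sum.inr 0) := h1
        rw [hne] at h2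
        simp at h2
      · have h1 := congrArg (fun g : Sp (Fin m) (fixedF σ) => g.1 (Sum.inl 0) (Sum.inr 0)) h
        have h2 : J (Fin m) (fixedF σ) (Sum.inl 0) (Sum.inr 0) = (-1 : Matrix (Fin m ⊕ Fin m) (Fin m ⊕ Fin m) (fixedF σ)) (Sum.inl 0) (Sum.inr 0) := h1
        rw [hne] at h2
        simp at h2
  · haveI : Fintype (fixL (faS σ : MulAut (Cfsg.PSp m F))) := Fintype.ofFinite _
    rw [Nat.card_eq_fintype_card] at hdvd
    obtain ⟨k, hk⟩ := exists_prime_orderOf_dvd_card p hdvd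
    have hk1 : orderOf (k : Cfsg.PSp m F) = p := by
      rw [Subgroup.orderOf_coe, hk]
    obtain ⟨j, hj⟩ := hp.out.odd_of_ne_two hp2
    refine ⟨k, ?_, hk1⟩
    have h1 := sq_mem_range_rho σ k.2
    have h2 : (k : Cfsg.PSp m F) = ((k : Cfsg.PSp m F) * k) ^ (j + 1) := by
      have h4 : (k : Cfsg.PSp m F) ^ p = 1 := by rw [← hk1]; exact pow_orderOf_eq_one _
      rw [hj] at h4
      rw [← pow_two, ← pow_mul]
      have h5 : (k : Cfsg.PSp m F) ^ (2 * (j + 1)) = (k : Cfsg.PSp m F) ^ (2 * j + 1) * k := by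
        rw [← pow_succ]
        congr 1
      rw [h5, h4, one_mul]
    rw [h2]
    exact pow_mem h1 _

lemma center_bot (hm : 2 ≤ m) (hK : IsSimpleGroup (Cfsg.PSp m F)) : Subgroup.center (Cfsg.PSp m F) = ⊥ := by
  rcases (inferInstance : (Subgroup.center (Cfsg.PSp m F)).Normal).eq_bot_or_eq_top with h | h
  · exact h
  · exfalso
    have h0 : (tb (eL 0) 1 : Cfsg.PSp m F) ∈ Subgroup.center (Cfsg.PSp m F) := by
      rw [h]
      trivial
    have h1 := (Subgroup.mem_center_iff.mp h0) (tb (eR 0) 1)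
    have h2 := (tb_comm_iff hm (u := (eR 0 : Fin m ⊕ Fin m → F)) (v := eL 0) eL_ne one_ne_zero one_ne_zero eR_ne).mp h1
    rw [ω_eL_right] at h2
    simp at h2

/-- The special case `Sp_4(2)`. -/
lemma normal_S6_trivial {k : Type*} [Field k] [Fintype k] (hk : Fintype.card k = 2) {p : ℕ} [hp : Fact p.Prime]
    (hp2 : p ≠ 2) (hdvd : p ∣ Nat.card (Sp (Fin 2) k)) (M : Subgroup (Sp (Fin 2) k)) (hM : M.Normal)
    (hcop : (Nat.card M).Coprime p) : M = ⊥ := by
  classical
  obtain ⟨e⟩ := Cfsg.Agent.S0247.result hk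
  have hc : Nat.card (Sp (Fin 2) k) = 720 := by
    rw [Nat.card_congr e.toEquiv, Nat.card_eq_fintype_card, Fintype.card_perm, Fintype.card_fin]
    rfl
  rw [hc] at hdvd
  have hp35 : p = 3 ∨ p = 5 := by
    have h720 : 720 = 2 ^ 4 * (3 ^ 2 * 5) := by norm_num
    rw [h720] at hdvd
    rcases (Nat.Prime.dvd_mul hp.out).mp hdvd with h | h
    · exact absurd ((Nat.prime_dvd_prime_iff_eq hp.out Nat.prime_two).mp (hp.out.dvd_of_dvd_pow h)) hp2
    · rcases (Nat.Prime.dvd_mul hp.out).mp h with h | h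
      · exact Or.inl ((Nat.prime_dvd_prime_iff_eq hp.out Nat.prime_three).mp (hp.out.dvd_of_dvd_pow h))
      · exact Or.inr ((Nat.prime_dvd_prime_iff_eq hp.out Nat.prime_five).mp h)
  by_contra hne
  let N : Subgroup (Equiv.Perm (Fin 6)) := M.map e.toMonoidHom
  haveI hNn : N.Normal := hM.map e.toMonoidHom e.surjective
  have hnt : Nontrivial N := by
    rw [Subgroup.nontrivial_iff_ne_bot]
    intro h
    exact hne ((Subgroup.map_eq_bot_iff_of_injective M (f := e.toMonoidHom) e.injective).mp h)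
  have h1 := Equiv.Perm.alternatingGroup_le_of_normal (α := Fin 6) (N := N) (by simp) hnt
  have h2 : Nat.card (alternatingGroup (Fin 6)) ∣ Nat.card N := Subgroup.card_dvd_of_le h1
  have h3 : Nat.card N = Nat.card M := Subgroup.card_map_of_injective (f := e.toMonoidHom) e.injective
  have h4 : Nat.card (alternatingGroup (Fin 6)) = 360 := by
    have h5 := two_mul_nat_card_alternatingGroup (α := Fin 6)
    rw [Nat.card_eq_fintype_card (α := Equiv.Perm (Fin 6)), Fintype.card_perm, Fintype.card_fin] at h5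
    have h6 : Nat.factorial 6 = 720 := rfl
    omega
  rw [h3, h4] at h2
  have h5 : p ∣ Nat.card M := by
    apply dvd_trans _ h2
    rcases hp35 with rfl | rfl <;> norm_num
  have h6 : p ∣ Nat.gcd (Nat.card M) p := Nat.dvd_gcd h5 dvd_rfl
  rw [hcop] at h6
  exact hp.out.one_lt.ne' (Nat.dvd_one.mp h6)

/-- Normal `p'`-subgroups of the fixed points are trivial. -/
theorem normal_in_fixL_trivial (hm : 2 ≤ m) (hF : m = 2 → 3 ≤ Fintype.card F) (σ : F ≃+* F) {p : ℕ} [hp : Fact p.Prime]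
    (h2p : (2 : F) = 0 → p ≠ 2) (hord : orderOf σ = p)
    (hdvd : p ∣ Nat.card (fixL (faS σ : MulAut (Cfsg.PSp m F))))
    (M : Subgroup (Cfsg.PSp m F)) (hle : M ≤ fixL (faS σ : MulAut (Cfsg.PSp m F)))
    (hnorm : ∀ k ∈ fixL (faS σ : MulAut (Cfsg.PSp m F)), ∀ a ∈ M, k * a * k⁻¹ ∈ M)
    (hcop : (Nat.card M).Coprime p) (hK : IsSimpleGroup (Cfsg.PSp m F)) : M = ⊥ := by
  classical
  set E := (rho (fixedF σ).subtype : Sp (Fin m) (fixedF σ) →* Cfsg.PSp m F).range with hE
  have hEL : E ≤ fixL (faS σ : MulAut (Cfsg.PSp m F)) := by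
    rintro _ ⟨s₀, rfl⟩
    exact rho_mem_fixL σ s₀
  have hcE : (∀ e ∈ M, orderOf e ∣ p → e = 1) := by
    intro e he hd
    have h1 : orderOf (⟨e, he⟩ : M) ∣ Nat.card M := orderOf_dvd_natCard _
    rw [Subgroup.orderOf_mk] at h1
    have h2 : orderOf e ∣ Nat.gcd (Nat.card M) p := Nat.dvd_gcd h1 hd
    rw [hcop, Nat.dvd_one, orderOf_eq_one_iff] at h2
    exact h2
  by_cases hex : m = 2 ∧ Fintype.card (fixedF σ) = 2
  · obtain ⟨rfl, hc2⟩ := hex
    have h2k : (2 : fixedF σ) = 0 := by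
      have := FiniteField.cast_card_eq_zero (fixedF σ)
      rw [hc2] at this
      exact_mod_cast this
    have h2 : (2 : F) = 0 := by
      have h5 : (fixedF σ).subtype ((2 : ℕ) : fixedF σ) = 0 := by
        rw [Nat.cast_ofNat, h2k, map_zero]
      rw [map_natCast] at h5
      exact_mod_cast h5
    have hp2 := h2p h2
    have hinjρ : Function.Injective (rho (fixedF σ).subtype : Sp (Fin 2) (fixedF σ) →* Cfsg.PSp 2 F) := by
      rw [injective_iff_map_eq_one]
      intro s hs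
      rw [rho_eq_one_iff] at hs
      exact eq_one_of_center h2k (by norm_num) hs
    have hLE : fixL (faS σ : MulAut (Cfsg.PSp 2 F)) ≤ E := by
      intro k hk
      obtain ⟨s, rfl⟩ := QuotientGroup.mk_surjective k
      obtain ⟨z, hz, hs, -⟩ := fixL_lift σ hk
      have hz1 := eq_one_of_center h2 (by norm_num) hz
      rw [hz1, mul_one] at hs
      exact mem_range_rho_of_fixed σ s hs
    obtain ⟨e, ⟨s₀, rfl⟩, heo⟩ := exists_order_p σ hdvd
    rw [orderOf_injective _ hinjρ] at heo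
    have hd : p ∣ Nat.card (Sp (Fin 2) (fixedF σ)) := by
      rw [← heo]
      exact orderOf_dvd_natCard s₀
    have hMc : (M.comap (rho (fixedF σ).subtype : Sp (Fin 2) (fixedF σ) →* Cfsg.PSp 2 F)) = ⊥ := by
      apply normal_S6_trivial hc2 hp2 hd
      · constructor
        intro n hn g
        rw [Subgroup.mem_comap] at hn ⊢
        rw [map_mul, map_mul, map_inv]
        exact hnorm _ (hEL ⟨g, rfl⟩) _ hn
      · have h3 : Nat.card (M.comap (rho (fixedF σ).subtype : Sp (Fin 2) (fixedF σ) →* Cfsg.PSp 2 F)) ∣ Nat.card M := by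
          apply Subgroup.card_dvd_of_injective
            ((rho (fixedF σ).subtype : Sp (Fin 2) (fixedF σ) →* Cfsg.PSp 2 F).subgroupComap M)
          intro a b hab
          apply Subtype.ext
          apply hinjρ
          exact congrArg Subtype.val hab
        exact Nat.Coprime.coprime_dvd_left h3 hcop
    rw [eq_bot_iff]
    intro a ha
    obtain ⟨s, rfl⟩ := hLE (hle ha)
    have h3 : s ∈ M.comap (rho (fixedF σ).subtype : Sp (Fin 2) (fixedF σ) →* Cfsg.PSp 2 F) := ha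
    rw [hMc, Subgroup.mem_bot] at h3
    rw [h3, map_one]
    exact one_mem _
  · -- the main case: the image of `Sp(F₀)` is simple
    have hE₀ : IsSimpleGroup (Cfsg.PSp m (fixedF σ)) := by
      apply Cfsg.Agent.Lib.SpSimple.isSimpleGroup_PSp' m hm
      intro h
      have h3 : 2 ≤ Fintype.card (fixedF σ) := Fintype.one_lt_card
      by_contra hlt
      exact hex ⟨h, by omega⟩
    obtain ⟨e, heE, heo⟩ := exists_order_p σ hdvd
    have he1 : e ∉ M := by
      intro h
      have h1 := hcE e h (by rw [heo])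
      rw [h1, orderOf_one] at heo
      exact hp.out.one_lt.ne heo
    -- `M ⊓ E` is trivial
    have hfs : ∀ x : Cfsg.PSp m (fixedF σ), (fSp (fixedF σ).subtype x ∈ M) → x = 1 := by
      have hN : (M.comap (fSp (fixedF σ).subtype : Cfsg.PSp m (fixedF σ) →* Cfsg.PSp m F)).Normal := by
        constructor
        intro n hn g
        rw [Subgroup.mem_comap] at hn ⊢
        rw [map_mul, map_mul, map_inv]
        apply hnorm _ _ _ hn
        obtain ⟨s, rfl⟩ := QuotientGroup.mk_surjective g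
        exact hEL ⟨s, rfl⟩
      rcases hN.eq_bot_or_eq_top with h | h
      · intro x hx
        have : x ∈ M.comap (fSp (fixedF σ).subtype : Cfsg.PSp m (fixedF σ) →* Cfsg.PSp m F) := hx
        rw [h] at this
        exact this
      · exfalso
        obtain ⟨s₀, rfl⟩ := heE
        apply he1
        have h3 : (QuotientGroup.mk s₀ : Cfsg.PSp m (fixedF σ)) ∈ M.comap (fSp (fixedF σ).subtype : Cfsg.PSp m (fixedF σ) →* Cfsg.PSp m F) := by
          rw [h]
          trivial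
        exact h3
    have hME : ∀ a ∈ M, a ∈ E → a = 1 := by
      rintro a ha ⟨s₀, rfl⟩
      have h3 : (QuotientGroup.mk s₀ : Cfsg.PSp m (fixedF σ)) = 1 := hfs (QuotientGroup.mk s₀) ha
      change fSp _ (QuotientGroup.mk s₀) = 1
      rw [h3, map_one]
    rw [eq_bot_iff]
    intro a ha
    have hfixE : ∀ s₀ : Sp (Fin m) (fixedF σ), (MulAut.conj a) (rho (fixedF σ).subtype s₀) = rho (fixedF σ).subtype s₀ := by
      intro s₀
      set t := rho (fixedF σ).subtype s₀ with ht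
      have h3 : a * t * a⁻¹ * t⁻¹ ∈ M := by
        have h4 : t * a⁻¹ * t⁻¹ ∈ M := hnorm t (hEL ⟨s₀, rfl⟩) _ (inv_mem ha)
        have h5 := mul_mem ha h4
        have e : a * t * a⁻¹ * t⁻¹ = a * (t * a⁻¹ * t⁻¹) := by group
        rw [e]
        exact h5
      have hte : t ∈ E := ⟨s₀, rfl⟩
      have h4 : a * t * a⁻¹ * t⁻¹ ∈ E := mul_mem (range_rho_normal σ (hle ha) hte) (inv_mem hte)
      have h5 := hME _ h3 h4
      rw [MulAut.conj_apply]
      exact mul_inv_eq_one.mp h5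
    obtain ⟨τ, hτ, hτf⟩ := cent_lemma hm σ _ hfixE
    have h3 := pow_eq_one_of_fix σ τ hord hτf
    have h4 : (MulAut.conj a) ^ p = 1 := by
      rw [hτ, faS_pow, h3]
      exact faS_one'
    have h5 : MulAut.conj (a ^ p) = 1 := by
      rw [map_pow]
      exact h4
    have h6 : a ^ p = 1 := by
      have h7 : a ^ p ∈ Subgroup.center (Cfsg.PSp m F) := by
        rw [Subgroup.mem_center_iff]
        intro g
        have h8 := congrArg (fun φ : MulAut (Cfsg.PSp m F) => φ g) h5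
        have h9 : a ^ p * g * (a ^ p)⁻¹ = g := h8
        exact (mul_inv_eq_iff_eq_mul.mp h9).symm
      rw [center_bot hm hK] at h7
      exact h7
    exact hcE a ha (orderOf_dvd_of_pow_eq_one h6)

/-- The criterion for a standard field automorphism. -/
theorem bal_std (hm : 2 ≤ m) (hF : m = 2 → 3 ≤ Fintype.card F) (hK : IsSimpleGroup (Cfsg.PSp m F)) (σ : F ≃+* F) {p : ℕ}
    [hp : Fact p.Prime] (h2p : (2 : F) = 0 → p ≠ 2) (hord : orderOf σ = p) (A : Subgroup (MulAut (Cfsg.PSp m F)))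
    (hinn : ∀ k : Cfsg.PSp m F, MulAut.conj k ∈ A) :
    (∃ N : Subgroup ↥(A ⊓ Subgroup.centralizer {(faS σ : MulAut (Cfsg.PSp m F))}), N.Normal ∧ (Nat.card N).Coprime p ∧ N ≠ ⊥) ↔
      Nat.Coprime p (Nat.card (fixL (faS σ : MulAut (Cfsg.PSp m F)))) := by
  classical
  set x : MulAut (Cfsg.PSp m F) := faS σ with hx
  set L := fixL x with hL
  have hcent := center_bot hm hK
  have hconj_inj : ∀ k : Cfsg.PSp m F, MulAut.conj k = 1 → k = 1 := by
    intro k hk
    have h7 : k ∈ Subgroup.center (Cfsg.PSp m F) := by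
      rw [Subgroup.mem_center_iff]
      intro g
      have h8 := congrArg (fun φ : MulAut (Cfsg.PSp m F) => φ g) hk
      have h9 : k * g * k⁻¹ = g := h8
      exact (mul_inv_eq_iff_eq_mul.mp h9).symm
    rw [hcent] at h7
    exact h7
  have hmemC : ∀ k : L, MulAut.conj k.1 ∈ A ⊓ Subgroup.centralizer {x} := by
    intro k
    refine ⟨hinn _, ?_⟩
    change MulAut.conj k.1 ∈ Subgroup.centralizer {x}
    rw [Subgroup.mem_centralizer_singleton_iff]
    have h1 := conj_conj_eq_S x k.1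
    have h2 : x k.1 = k.1 := k.2
    rw [h2] at h1
    calc MulAut.conj k.1 * x = (x * MulAut.conj k.1 * x⁻¹) * x := by rw [h1]
      _ = x * MulAut.conj k.1 := by group
  let cL : L →* ↥(A ⊓ Subgroup.centralizer {x}) :=
    { toFun := fun k => ⟨MulAut.conj k.1, hmemC k⟩
      map_one' := by
        apply Subtype.ext
        exact map_one _
      map_mul' := fun a b => by
        apply Subtype.ext
        exact map_mul _ _ _ }
  have hcL : ∀ k : L, (cL k).1 = MulAut.conj k.1 := fun _ => rfl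
  have hcLinj : Function.Injective cL := by
    rw [injective_iff_map_eq_one]
    intro k hk
    apply Subtype.ext
    apply hconj_inj
    have := congrArg Subtype.val hk
    exact this
  have hact : ∀ (a : ↥(A ⊓ Subgroup.centralizer {x})) (k : L), a.1 k.1 ∈ L := by
    intro a k
    have h1 : a.1 ∈ Subgroup.centralizer {x} := a.2.2
    rw [Subgroup.mem_centralizer_singleton_iff] at h1
    have h2 := congrArg (fun φ : MulAut (Cfsg.PSp m F) => φ k.1) h1
    have h3 : x k.1 = k.1 := k.2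
    change a.1 (x k.1) = x (a.1 k.1) at h2
    rw [h3] at h2
    exact h2.symm
  have hconjL : ∀ (a : ↥(A ⊓ Subgroup.centralizer {x})) (k : L),
      a * cL k * a⁻¹ = cL ⟨a.1 k.1, hact a k⟩ := by
    intro a k
    apply Subtype.ext
    exact conj_conj_eq_S a.1 k.1
  constructor
  · rintro ⟨N, hN, hcop, hne⟩
    rw [Nat.Prime.coprime_iff_not_dvd hp.out]
    intro hdvd
    apply hne
    -- the part of `N` in the fixed points
    let M : Subgroup (Cfsg.PSp m F) := (N.comap cL).map L.subtype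
    have hMc : Nat.card M ∣ Nat.card N := by
      have h1 : Nat.card M = Nat.card (N.comap cL) := Subgroup.card_map_of_injective L.subtype_injective
      rw [h1]
      apply Subgroup.card_dvd_of_injective (cL.subgroupComap N)
      intro a b hab
      apply Subtype.ext
      apply hcLinj
      exact congrArg Subtype.val hab
    have hMb : M = ⊥ := by
      apply normal_in_fixL_trivial hm hF σ h2p hord hdvd M _ _ _ hK
      · rintro _ ⟨a, -, rfl⟩
        exact a.2
      · rintro k hk _ ⟨a, ha, rfl⟩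
        refine ⟨⟨k, hk⟩ * a * ⟨k, hk⟩⁻¹, ?_, rfl⟩
        change cL _ ∈ N
        rw [map_mul, map_mul, map_inv]
        exact hN.conj_mem _ ha _
      · exact Nat.Coprime.coprime_dvd_left hMc hcop
    rw [eq_bot_iff]
    intro n hn
    have hfix : ∀ k : L, n.1 k.1 = k.1 := by
      intro k
      have h1 : cL ⟨n.1 k.1, hact n k⟩ * (cL k)⁻¹ ∈ N := by
        rw [← hconjL]
        have h2 : n * cL k * n⁻¹ * (cL k)⁻¹ = n * (cL k * n⁻¹ * (cL k)⁻¹) := by group
        rw [h2]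
        exact mul_mem hn (hN.conj_mem _ (inv_mem hn) _)
      rw [← map_inv, ← map_mul] at h1
      have h3 : (⟨n.1 k.1, hact n k⟩ * k⁻¹ : L).1 ∈ M := ⟨_, h1, rfl⟩
      rw [hMb] at h3
      have h4 : n.1 k.1 * k.1⁻¹ = 1 := h3
      exact mul_inv_eq_one.mp h4
    obtain ⟨τ, hτ, hτf⟩ := cent_lemma hm σ n.1 (fun s₀ => hfix ⟨_, rho_mem_fixL σ s₀⟩)
    have h3 := pow_eq_one_of_fix σ τ hord hτf
    have h4 : n ^ p = 1 := by
      apply Subtype.ext
      rw [Subgroup.coe_pow, hτ, faS_pow, h3]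
      exact faS_one'
    have h5 : orderOf (⟨n, hn⟩ : N) ∣ Nat.card N := orderOf_dvd_natCard _
    rw [Subgroup.orderOf_mk] at h5
    have h6 : orderOf n ∣ Nat.gcd (Nat.card N) p := Nat.dvd_gcd h5 (orderOf_dvd_of_pow_eq_one h4)
    rw [hcop, Nat.dvd_one, orderOf_eq_one_iff] at h6
    rw [h6]
    exact one_mem _
  · intro hcop
    refine ⟨cL.range, ?_, ?_, ?_⟩
    · constructor
      rintro _ ⟨k, rfl⟩ a
      exact ⟨⟨a.1 k.1, hact a k⟩, (hconjL a k).symm⟩
    · apply Nat.Coprime.coprime_dvd_left (Subgroup.card_range_dvd cL) hcop.symm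
    · intro h0
      have hT : (tb (eL 0) 1 : Cfsg.PSp m F) ∈ L := by
        have h1 := gsAut_tb (1 : GS m F) σ (eL 0) 1
        change x _ = _ at h1
        rw [mem_fixL, h1, map_one]
        have h3 : (1 : GS m F).1.1 = 1 := rfl
        rw [h3, one_mulVec, fm_single, map_one, Units.val_one, inv_one, mul_one]
      have h1 : cL ⟨tb (eL 0) 1, hT⟩ ∈ cL.range := ⟨_, rfl⟩
      rw [h0, Subgroup.mem_bot] at h1
      have h2 : (⟨tb (eL 0) 1, hT⟩ : L) = 1 := hcLinj (by rw [h1, map_one])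
      have h3 : (tb (eL 0) 1 : Cfsg.PSp m F) = 1 := congrArg Subtype.val h2
      exact tb_ne_one hm eL_ne one_ne_zero h3

end Core

lemma core_ne_bot_iff {G : Type*} [Group G] (p : ℕ) :
    Cfsg.pPrimeCore p G ≠ ⊥ ↔ ∃ N : Subgroup G, N.Normal ∧ (Nat.card N).Coprime p ∧ N ≠ ⊥ := by
  rw [Cfsg.pPrimeCore, Ne, sSup_eq_bot]
  push Not
  constructor
  · rintro ⟨N, ⟨h1, h2⟩, h3⟩
    exact ⟨N, h1, h2, h3⟩
  · rintro ⟨N, h1, h2, h3⟩
    exact ⟨N, ⟨h1, h2⟩, h3⟩

lemma exists_normal_congr {G H : Type*} [Group G] [Group H] (e : G ≃* H) {p : ℕ}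
    (h : ∃ N : Subgroup G, N.Normal ∧ (Nat.card N).Coprime p ∧ N ≠ ⊥) :
    ∃ N : Subgroup H, N.Normal ∧ (Nat.card N).Coprime p ∧ N ≠ ⊥ := by
  obtain ⟨N, h1, h2, h3⟩ := h
  refine ⟨N.map e.toMonoidHom, h1.map _ e.surjective, ?_, ?_⟩
  · rw [Subgroup.card_map_of_injective (f := e.toMonoidHom) e.injective]
    exact h2
  · intro h0
    exact h3 ((Subgroup.map_eq_bot_iff_of_injective N (f := e.toMonoidHom) e.injective).mp h0)

/-- Conjugation transports the centraliser. -/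
lemma centr_transport {X : Type*} [Group X] (A : Subgroup X) (U x₀ : X) :
    Nonempty (↥(A ⊓ Subgroup.centralizer {U * x₀ * U⁻¹}) ≃*
      ↥((A.map (MulAut.conj U⁻¹).toMonoidHom) ⊓ Subgroup.centralizer {x₀})) := by
  have h : (A ⊓ Subgroup.centralizer {U * x₀ * U⁻¹}).map (MulAut.conj U⁻¹).toMonoidHom =
      (A.map (MulAut.conj U⁻¹).toMonoidHom) ⊓ Subgroup.centralizer {x₀} := by
    ext y
    constructor
    · rintro ⟨z, ⟨hz1, hz2⟩, rfl⟩
      refine ⟨⟨z, hz1, rfl⟩, ?_⟩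
      have hz2' : z ∈ Subgroup.centralizer {U * x₀ * U⁻¹} := hz2
      rw [Subgroup.mem_centralizer_singleton_iff] at hz2'
      change (MulAut.conj U⁻¹) z ∈ Subgroup.centralizer {x₀}
      rw [Subgroup.mem_centralizer_singleton_iff, MulAut.conj_apply]
      calc U⁻¹ * z * U⁻¹⁻¹ * x₀ = U⁻¹ * (z * (U * x₀ * U⁻¹)) * U := by group
        _ = U⁻¹ * ((U * x₀ * U⁻¹) * z) * U := by rw [hz2']
        _ = _ := by group
    · rintro ⟨⟨z, hz1, rfl⟩, hy2⟩
      refine ⟨z, ⟨hz1, ?_⟩, rfl⟩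
      have hy2' : (MulAut.conj U⁻¹) z ∈ Subgroup.centralizer {x₀} := hy2
      rw [Subgroup.mem_centralizer_singleton_iff, MulAut.conj_apply] at hy2'
      change z ∈ Subgroup.centralizer {U * x₀ * U⁻¹}
      rw [Subgroup.mem_centralizer_singleton_iff]
      calc z * (U * x₀ * U⁻¹) = U * ((U⁻¹ * z * U⁻¹⁻¹) * x₀) * U⁻¹ := by group
        _ = U * (x₀ * (U⁻¹ * z * U⁻¹⁻¹)) * U⁻¹ := by rw [hy2']
        _ = _ := by group
  exact ⟨((MulAut.conj U⁻¹).subgroupMap _).trans (MulEquiv.subgroupCongr h)⟩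

/-- The criterion, for all automorphisms in question. -/
theorem bal_main [Fintype F] {r : ℕ} [Fact r.Prime] [CharP F r] (hm : 2 ≤ m) (hs : m = 2 → 3 ≤ Fintype.card F)
    (hK : IsSimpleGroup (Cfsg.PSp m F)) (A : Subgroup (MulAut (Cfsg.PSp m F))) (hinn : ∀ k : Cfsg.PSp m F, MulAut.conj k ∈ A)
    {p : ℕ} [hp : Fact p.Prime] (hpr : p ≠ r) (x : MulAut (Cfsg.PSp m F)) (hord : orderOf x = p)
    (hnot : ¬ Cfsg.IsInnerDiagonalAutPSp x) :
    Cfsg.pPrimeCore p ↥(A ⊓ Subgroup.centralizer {x}) ≠ ⊥ ↔ (Cfsg.IsFieldAutClassPSp x ∧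
      Nat.Coprime p (Nat.card ↥(MonoidHom.eqLocus x.toMonoidHom (MonoidHom.id (Cfsg.PSp m F))))) := by
  classical
  haveI : NeZero m := ⟨by omega⟩
  have h2p : (2 : F) = 0 → p ≠ 2 := by
    rintro h2 rfl
    apply hpr
    have h3 : r ∣ 2 := (CharP.cast_eq_zero_iff F r 2).mp (by exact_mod_cast h2)
    exact ((Nat.prime_dvd_prime_iff_eq (Fact.out) Nat.prime_two).mp h3).symm
  obtain ⟨G, τ, rfl⟩ := mem_gamma_of_prime_order hm hp.out hord h2p
  have hτ : τ ≠ RingEquiv.refl F := by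
    rintro rfl
    exact hnot ((isInnerDiag_iff _).mpr ⟨G, rfl⟩)
  have hy : (gsAut G τ) ^ p = 1 := by
    rw [← hord]
    exact pow_orderOf_eq_one _
  have hy' := hy
  rw [gsAut_pow] at hy'
  obtain ⟨h3, -⟩ := eq_of_gsAut_eq_one hm hy'
  have hτo : orderOf τ = p := orderOf_eq_prime h3 hτ
  obtain ⟨H, hH⟩ := lang_S hm τ hp.out.pos hτo G hy
  rw [hH] at hord hnot ⊢
  set U := dlS H with hU
  have hcl : Cfsg.IsFieldAutClassPSp (U * faS τ * U⁻¹) := by
    refine ⟨U⁻¹, τ, hτ, (isStd_iff _ _).mpr ?_⟩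
    group
  have hcard : Nat.card ↥(MonoidHom.eqLocus (U * faS τ * U⁻¹ : MulAut (Cfsg.PSp m F)).toMonoidHom (MonoidHom.id (Cfsg.PSp m F))) =
      Nat.card (fixL (faS τ : MulAut (Cfsg.PSp m F))) := by
    symm
    apply Nat.card_congr
    refine ⟨fun k => ⟨U k.1, ?_⟩, fun k => ⟨U⁻¹ k.1, ?_⟩, fun k => ?_, fun k => ?_⟩
    · have h4 : (faS τ : MulAut (Cfsg.PSp m F)) k.1 = k.1 := k.2
      change (U * faS τ * U⁻¹ : MulAut (Cfsg.PSp m F)) (U k.1) = U k.1
      change U (faS τ (U⁻¹ (U k.1))) = U k.1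
      have h5 : U⁻¹ (U k.1) = k.1 := U.symm_apply_apply _
      rw [h5, h4]
    · have h4 : (U * faS τ * U⁻¹ : MulAut (Cfsg.PSp m F)) k.1 = k.1 := k.2
      change (faS τ : MulAut (Cfsg.PSp m F)) (U⁻¹ k.1) = U⁻¹ k.1
      have h5 : U (faS τ (U⁻¹ k.1)) = k.1 := h4
      conv_rhs => rw [← h5]
      exact (U.symm_apply_apply _).symm
    · apply Subtype.ext
      exact U.symm_apply_apply _
    · apply Subtype.ext
      exact U.apply_symm_apply _
  rw [hcard]
  have hinn₀ : ∀ k : Cfsg.PSp m F, MulAut.conj k ∈ A.map (MulAut.conj U⁻¹).toMonoidHom := by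
    intro k
    refine ⟨MulAut.conj (U k), hinn _, ?_⟩
    change U⁻¹ * MulAut.conj (U k) * U⁻¹⁻¹ = _
    rw [inv_inv, ← conj_conj_eq_S]
    group
  obtain ⟨e⟩ := centr_transport A U (faS τ)
  rw [core_ne_bot_iff]
  constructor
  · intro h
    refine ⟨hcl, ?_⟩
    exact (bal_std hm hs hK τ h2p hτo _ hinn₀).mp (exists_normal_congr e h)
  · rintro ⟨-, h⟩
    exact exists_normal_congr e.symm ((bal_std hm hs hK τ h2p hτo _ hinn₀).mpr h)

end Cfsg.Agent.Lib.AutPSp
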