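import Cfsg.Agent.Lib.AutPSp.Count
import Cfsg.Agent.Lib.SpSimple

/-!
# The exceptional automorphism of `Sp_4` in characteristic two
-/

set_option autoImplicit false

namespace Cfsg.Agent.Lib.AutPSp

open Matrix Cfsg.Agent.Lib.SpBasic
open scoped MatrixGroups

variable {F : Type*} [Field F]

/-- The index set. -/
abbrev Ix := Fin 2 ⊕ Fin 2

/-- A two by two minor. -/
def mn (g : Matrix Ix Ix F) (r₁ r₂ c₁ c₂ : Ix) : F := g r₁ c₁ * g r₂ c₂ - g r₁ c₂ * g r₂ c₁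

/-- The basis of the reduced exterior square. -/
def PP : Ix → Ix × Ix :=
  Sum.elim ![(Sum.inl 0, Sum.inl 1), (Sum.inl 0, Sum.inr 1)] ![(Sum.inr 0, Sum.inr 1), (Sum.inl 1, Sum.inr 0)]

/-- The action on the reduced exterior square. -/
def psiM (g : Matrix Ix Ix F) : Matrix Ix Ix F :=
  fun X Y => mn g (PP X).1 (PP X).2 (PP Y).1 (PP Y).2

/-- Cauchy--Binet, with the two extra terms cancelling. -/
lemma mn_mul (h2 : (2 : F) = 0) (g h : Matrix Ix Ix F) (r₁ r₂ c₁ c₂ : Ix)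
    (hr : mn g r₁ r₂ (Sum.inl 0) (Sum.inr 0) + mn g r₁ r₂ (Sum.inl 1) (Sum.inr 1) = 0)
    (hc : mn h (Sum.inl 0) (Sum.inr 0) c₁ c₂ + mn h (Sum.inl 1) (Sum.inr 1) c₁ c₂ = 0) :
    mn (g * h) r₁ r₂ c₁ c₂ =
      mn g r₁ r₂ (Sum.inl 0) (Sum.inl 1) * mn h (Sum.inl 0) (Sum.inl 1) c₁ c₂ +
      mn g r₁ r₂ (Sum.inl 0) (Sum.inr 1) * mn h (Sum.inl 0) (Sum.inr 1) c₁ c₂ +
      mn g r₁ r₂ (Sum.inr 0) (Sum.inr 1) * mn h (Sum.inr 0) (Sum.inr 1) c₁ c₂ +
      mn g r₁ r₂ (Sum.inl 1) (Sum.inr 0) * mn h (Sum.inl 1) (Sum.inr 0) c₁ c₂ := by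
  have e : mn (g * h) r₁ r₂ c₁ c₂ =
      mn g r₁ r₂ (Sum.inl 0) (Sum.inl 1) * mn h (Sum.inl 0) (Sum.inl 1) c₁ c₂ +
      mn g r₁ r₂ (Sum.inl 0) (Sum.inr 1) * mn h (Sum.inl 0) (Sum.inr 1) c₁ c₂ +
      mn g r₁ r₂ (Sum.inr 0) (Sum.inr 1) * mn h (Sum.inr 0) (Sum.inr 1) c₁ c₂ +
      mn g r₁ r₂ (Sum.inl 1) (Sum.inr 0) * mn h (Sum.inl 1) (Sum.inr 0) c₁ c₂ +
      mn g r₁ r₂ (Sum.inl 0) (Sum.inr 0) * mn h (Sum.inl 0) (Sum.inr 0) c₁ c₂ +
      mn g r₁ r₂ (Sum.inl 1) (Sum.inr 1) * mn h (Sum.inl 1) (Sum.inr 1) c₁ c₂ := by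
    simp only [mn, Matrix.mul_apply, Fintype.sum_sum_type, Fin.sum_univ_two]
    ring
  rw [e]
  linear_combination (mn g r₁ r₂ (Sum.inl 0) (Sum.inr 0)) * hc + (mn h (Sum.inl 1) (Sum.inr 1) c₁ c₂) * hr -
    (mn g r₁ r₂ (Sum.inl 0) (Sum.inr 0) * mn h (Sum.inl 1) (Sum.inr 1) c₁ c₂) * h2

lemma ω_single_PP (Y : Ix) : ω (Pi.single (PP Y).1 1 : Ix → F) (Pi.single (PP Y).2 1) = 0 := by
  rcases Y with i | i <;> fin_cases i <;> simp [PP, ω_apply, Fin.sum_univ_two]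

/-- The columns condition. -/
lemma col_cond (h2 : (2 : F) = 0) {g : Matrix Ix Ix F} (hg : g ∈ symplecticGroup (Fin 2) F) (Y : Ix) :
    mn g (Sum.inl 0) (Sum.inr 0) (PP Y).1 (PP Y).2 + mn g (Sum.inl 1) (Sum.inr 1) (PP Y).1 (PP Y).2 = 0 := by
  have h1 := mem_symplecticGroup_iff.mp hg (Pi.single (PP Y).1 1) (Pi.single (PP Y).2 1)
  rw [ω_single_PP, ω_apply] at h1
  simp only [Fin.sum_univ_two, Matrix.mulVec_single_one, Matrix.col_apply] at h1
  simp only [mn]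
  linear_combination (-1 : F) * h1

lemma mn_transpose (g : Matrix Ix Ix F) (r₁ r₂ c₁ c₂ : Ix) : mn gᵀ r₁ r₂ c₁ c₂ = mn g c₁ c₂ r₁ r₂ := by
  simp only [mn, Matrix.transpose_apply]
  ring

lemma row_cond (h2 : (2 : F) = 0) {g : Matrix Ix Ix F} (hg : g ∈ symplecticGroup (Fin 2) F) (X : Ix) :
    mn g (PP X).1 (PP X).2 (Sum.inl 0) (Sum.inr 0) + mn g (PP X).1 (PP X).2 (Sum.inl 1) (Sum.inr 1) = 0 := by
  have h1 := col_cond h2 (SymplecticGroup.transpose_mem hg) X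
  rwa [mn_transpose, mn_transpose] at h1

theorem psiM_mul (h2 : (2 : F) = 0) {g h : Matrix Ix Ix F} (hg : g ∈ symplecticGroup (Fin 2) F)
    (hh : h ∈ symplecticGroup (Fin 2) F) : psiM (g * h) = psiM g * psiM h := by
  ext X Y
  change mn (g * h) (PP X).1 (PP X).2 (PP Y).1 (PP Y).2 = _
  rw [mn_mul h2 g h _ _ _ _ (row_cond h2 hg X) (col_cond h2 hh Y)]
  simp only [Matrix.mul_apply, Fintype.sum_sum_type, Fin.sum_univ_two]
  simp only [psiM, PP, Sum.elim_inl, Sum.elim_inr, Matrix.cons_val_zero, Matrix.cons_val_one, Matrix.cons_val_fin_one]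
  ring

theorem psiM_one : psiM (1 : Matrix Ix Ix F) = 1 := by
  ext X Y
  rcases X with i | i <;> rcases Y with j | j <;> fin_cases i <;> fin_cases j <;>
    simp [psiM, mn, PP, Matrix.one_apply]

lemma tMat_apply (u : Ix → F) (c : F) (i j : Ix) :
    tMat u c i j = (if i = j then 1 else 0) + c * ω u (Pi.single j 1) * u i := by
  have h := congrFun (tMat_mulVec u c (Pi.single j 1)) i
  rw [Matrix.mulVec_single_one] at h
  simp only [Matrix.col_apply, Pi.add_apply, Pi.smul_apply, smul_eq_mul] at h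
  rw [h]
  congr 1
  simp [Pi.single_apply]

lemma mem_of_rows (A : Matrix Ix Ix F)
    (h : ∀ X Y, (A X (Sum.inr 0) * A Y (Sum.inl 0) - A X (Sum.inl 0) * A Y (Sum.inr 0)) +
      (A X (Sum.inr 1) * A Y (Sum.inl 1) - A X (Sum.inl 1) * A Y (Sum.inr 1)) = J (Fin 2) F X Y) :
    A ∈ symplecticGroup (Fin 2) F := by
  rw [SymplecticGroup.mem_iff]
  ext X Y
  rw [← h X Y]
  simp only [Matrix.mul_apply, Fintype.sum_sum_type, Fin.sum_univ_two, J, Matrix.fromBlocks_apply₁₁, Matrix.fromBlocks_apply₁₂,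
    Matrix.fromBlocks_apply₂₁, Matrix.fromBlocks_apply₂₂, Matrix.zero_apply, Matrix.neg_apply, Matrix.one_apply, Matrix.transpose_apply]
  simp
  ring

lemma J_ll (i j : Fin 2) : J (Fin 2) F (Sum.inl i) (Sum.inl j) = 0 := rfl

lemma J_rr (i j : Fin 2) : J (Fin 2) F (Sum.inr i) (Sum.inr j) = 0 := rfl

lemma J_lr (i j : Fin 2) : J (Fin 2) F (Sum.inl i) (Sum.inr j) = - if i = j then 1 else 0 := by
  simp [J, Matrix.one_apply]

lemma J_rl (i j : Fin 2) : J (Fin 2) F (Sum.inr i) (Sum.inl j) = if i = j then 1 else 0 := by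
  simp [J, Matrix.one_apply]

/-- The matrices of the images of transvections are symplectic. -/
theorem psiT_mem (h2 : (2 : F) = 0) (u : Ix → F) (c : F) : psiM (tMat u c) ∈ symplecticGroup (Fin 2) F := by
  apply mem_of_rows
  simp only [Sum.forall, Fin.forall_fin_two, psiM, mn, PP, Sum.elim_inl, Sum.elim_inr, Matrix.cons_val_zero, Matrix.cons_val_one,
    Matrix.cons_val_fin_one, tMat_apply, J_ll, J_rr, J_lr, J_rl, ω_eL_right, ω_eR_right,
    if_true, zero_ne_one, one_ne_zero, if_false, Fin.isValue, Sum.inl.injEq, Sum.inr.injEq, reduceCtorEq]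
  refine ⟨⟨⟨⟨?_, ?_⟩, ?_, ?_⟩, ⟨?_, ?_⟩, ?_, ?_⟩, ⟨⟨?_, ?_⟩, ?_, ?_⟩, ⟨?_, ?_⟩, ?_, ?_⟩
  · linear_combination (0) * h2
  · linear_combination ((1)*(u (Sum.inl 0))^2*c + (1)*(u (Sum.inl 0))^3*(u (Sum.inr 0))*c^2) * h2
  · linear_combination ((1)*(u (Sum.inl 0))*(u (Sum.inl 1))*(u (Sum.inr 0))*(u (Sum.inr 1))*c^2 + (1)*(u (Sum.inl 0))^2*(u (Sum.inr 0))^2*c^2) * h2
  · linear_combination ((-1)*(u (Sum.inl 0))*(u (Sum.inl 1))^2*(u (Sum.inr 0))*c^2) * h2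
  · linear_combination ((-1)*(u (Sum.inl 0))^2*c + (-1)*(u (Sum.inl 0))^3*(u (Sum.inr 0))*c^2) * h2
  · linear_combination (0) * h2
  · linear_combination ((1)*(u (Sum.inl 0))*(u (Sum.inr 0))*(u (Sum.inr 1))^2*c^2) * h2
  · linear_combination ((-1)*(u (Sum.inl 0))*(u (Sum.inl 1))*(u (Sum.inr 0))*(u (Sum.inr 1))*c^2 + (1)*(u (Sum.inl 0))^2*(u (Sum.inr 0))^2*c^2) * h2
  · linear_combination ((-1)*(u (Sum.inl 0))*(u (Sum.inl 1))*(u (Sum.inr 0))*(u (Sum.inr 1))*c^2 + (-1)*(u (Sum.inl 0))^2*(u (Sum.inr 0))^2*c^2) * h2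
  · linear_combination ((-1)*(u (Sum.inl 0))*(u (Sum.inr 0))*(u (Sum.inr 1))^2*c^2) * h2
  · linear_combination (0) * h2
  · linear_combination ((-1)*(u (Sum.inr 0))^2*c + (1)*(u (Sum.inl 0))*(u (Sum.inr 0))^3*c^2) * h2
  · linear_combination ((1)*(u (Sum.inl 0))*(u (Sum.inl 1))^2*(u (Sum.inr 0))*c^2) * h2
  · linear_combination ((1)*(u (Sum.inl 0))*(u (Sum.inl 1))*(u (Sum.inr 0))*(u (Sum.inr 1))*c^2 + (-1)*(u (Sum.inl 0))^2*(u (Sum.inr 0))^2*c^2) * h2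
  · linear_combination ((1)*(u (Sum.inr 0))^2*c + (-1)*(u (Sum.inl 0))*(u (Sum.inr 0))^3*c^2) * h2
  · linear_combination (0) * h2

theorem psiM_mem [Fintype F] (h2 : (2 : F) = 0) (g : Sp (Fin 2) F) : psiM g.1 ∈ symplecticGroup (Fin 2) F := by
  induction g using T_induction with
  | h1 =>
    change psiM (1 : Matrix Ix Ix F) ∈ _
    rw [psiM_one]
    exact one_mem _
  | ht u c => exact psiT_mem h2 u c
  | hmul a b ha hb =>
    change psiM (a.1 * b.1) ∈ _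
    rw [psiM_mul h2 a.2 b.2]
    exact mul_mem ha hb

/-- The exceptional endomorphism of `Sp_4`. -/
noncomputable def psiHom [Fintype F] (h2 : (2 : F) = 0) : Sp (Fin 2) F →* Sp (Fin 2) F where
  toFun g := ⟨psiM g.1, psiM_mem h2 g⟩
  map_one' := Subtype.ext psiM_one
  map_mul' a b := Subtype.ext (psiM_mul h2 a.2 b.2)

lemma psiHom_coe [Fintype F] (h2 : (2 : F) = 0) (g : Sp (Fin 2) F) : (psiHom h2 g).1 = psiM g.1 := rfl

/-- The induced endomorphism of `PSp_4`. -/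
noncomputable def psiBar [Fintype F] (h2 : (2 : F) = 0) : Cfsg.PSp 2 F →* Cfsg.PSp 2 F :=
  QuotientGroup.map _ _ (psiHom h2) (by
    intro z hz
    have h1 := eq_one_of_center h2 (by norm_num) hz
    rw [h1, Subgroup.mem_comap, map_one]
    exact one_mem _)

lemma psiBar_mk [Fintype F] (h2 : (2 : F) = 0) (g : Sp (Fin 2) F) :
    psiBar h2 (QuotientGroup.mk g) = QuotientGroup.mk (psiHom h2 g) := rfl

lemma mk_injective_two (h2 : (2 : F) = 0) {g h : Sp (Fin 2) F}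
    (e : (QuotientGroup.mk g : Cfsg.PSp 2 F) = QuotientGroup.mk h) : g = h := by
  have h1 := QuotientGroup.eq.mp e
  have h3 := eq_one_of_center h2 (by norm_num) h1
  exact inv_mul_eq_one.mp h3

/-- The image of the first root element is not a root element. -/
lemma psi_not_root [Fintype F] (h2 : (2 : F) = 0) (w : Ix → F) (a : F) :
    psiHom h2 (T (eL 0) 1) ≠ T w a := by
  intro h
  have hneg : ∀ t : F, - t = t := fun t => by linear_combination (- t) * h2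
  have e1 : (psiHom h2 (T (eL 0) 1)) • (eR 1 : Ix → F) = eR 1 + eL 0 := by
    rw [Sp_smul_def, psiHom_coe]
    change psiM (tMat (eL 0 : Ix → F) 1) *ᵥ _ = _
    rw [Matrix.mulVec_single_one]
    ext i
    rcases i with i | i <;> fin_cases i <;>
      simp [psiM, mn, PP, tMat_apply, ω_eL_right, ω_eR_right, Matrix.col_apply]
  have e2 : (psiHom h2 (T (eL 0) 1)) • (eR 0 : Ix → F) = eR 0 + eL 1 := by
    rw [Sp_smul_def, psiHom_coe]
    change psiM (tMat (eL 0 : Ix → F) 1) *ᵥ _ = _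
    rw [Matrix.mulVec_single_one]
    ext i
    rcases i with i | i <;> fin_cases i <;>
      simp [psiM, mn, PP, tMat_apply, ω_eL_right, ω_eR_right, Matrix.col_apply, hneg]
  rw [h, T_smul] at e1 e2
  have e3 := add_left_cancel e1
  have e4 := add_left_cancel e2
  set k₁ := a * ω w (eR 1) with hk₁
  set k₂ := a * ω w (eR 0) with hk₂
  have h3 := congrFun e3 (Sum.inl 0)
  have h4 := congrFun e3 (Sum.inl 1)
  have h5 := congrFun e4 (Sum.inl 1)
  simp only [Pi.smul_apply, smul_eq_mul] at h3 h4 h5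
  have h6 : k₁ ≠ 0 := by
    intro h0
    rw [h0, zero_mul] at h3
    simp at h3
  have h7 : w (Sum.inl 1) = 0 := by
    have : k₁ * w (Sum.inl 1) = 0 := by
      rw [h4]
      simp
    exact (mul_eq_zero.mp this).resolve_left h6
  rw [h7, mul_zero] at h5
  simp at h5

/-- The exceptional automorphism. -/
theorem exists_graph_aut [Fintype F] (h2 : (2 : F) = 0) (hF : 3 ≤ Fintype.card F) :
    ∃ α : MulAut (Cfsg.PSp 2 F), ∃ (v : Ix → F) (c : F), ∀ (w : Ix → F) (a : F), α (tb v c) ≠ tb w a := by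
  classical
  have hsimple : IsSimpleGroup (Cfsg.PSp 2 F) :=
    Cfsg.Agent.Lib.SpSimple.isSimpleGroup_PSp' 2 le_rfl (fun _ => hF)
  have hne : psiBar h2 (tb (eL 0) 1) ≠ 1 := by
    intro h1
    have h3 : (QuotientGroup.mk (psiHom h2 (T (eL 0) 1)) : Cfsg.PSp 2 F) = QuotientGroup.mk (T (0 : Ix → F) 0) := by
      rw [T_zero_right]
      exact h1
    exact psi_not_root h2 0 0 (mk_injective_two h2 h3)
  have hinj : Function.Injective (psiBar h2) := by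
    rw [injective_iff_map_eq_one]
    intro x hx
    have hker : (psiBar h2).ker = ⊥ := by
      rcases (psiBar h2).normal_ker.eq_bot_or_eq_top with h | h
      · exact h
      · exfalso
        have h3 : tb (eL 0 : Ix → F) 1 ∈ (psiBar h2).ker := by
          rw [h]
          trivial
        exact hne h3
    have h4 : x ∈ (psiBar h2).ker := hx
    rw [hker] at h4
    exact h4
  have hsurj : Function.Surjective (psiBar h2) := Finite.injective_iff_surjective.mp hinj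
  let α : MulAut (Cfsg.PSp 2 F) := MulEquiv.ofBijective (psiBar h2) ⟨hinj, hsurj⟩
  refine ⟨α, eL 0, 1, fun w a h => ?_⟩
  have h3 : (QuotientGroup.mk (psiHom h2 (T (eL 0) 1)) : Cfsg.PSp 2 F) = QuotientGroup.mk (T w a) := h
  exact psi_not_root h2 w a (mk_injective_two h2 h3)

variable {m : ℕ}

/-- Two automorphisms of the second type differ by a root-preserving one. -/
theorem root_of_two_B [Finite F] (hm : 2 ≤ m) (α β : MulAut (Cfsg.PSp m F))
    (hα : ∀ v : Fin m ⊕ Fin m → F, v ≠ 0 → ∃ g : Sp (Fin m) F, ∀ c : F, ∃ b : F, α (tb v c) =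
        (QuotientGroup.mk g : Cfsg.PSp m F) * sb (eL ⟨0, by omega⟩) (eL ⟨1, by omega⟩) b * (QuotientGroup.mk g)⁻¹)
    (hβ : ∀ v : Fin m ⊕ Fin m → F, v ≠ 0 → ∃ g : Sp (Fin m) F, ∀ c : F, ∃ b : F, β (tb v c) =
        (QuotientGroup.mk g : Cfsg.PSp m F) * sb (eL ⟨0, by omega⟩) (eL ⟨1, by omega⟩) b * (QuotientGroup.mk g)⁻¹) :
    ∀ v : Fin m ⊕ Fin m → F, v ≠ 0 → ∃ w : Fin m ⊕ Fin m → F, w ≠ 0 ∧
      ∀ c : F, ∃ a : F, (α⁻¹ * β : MulAut (Cfsg.PSp m F)) (tb v c) = tb w a := by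
  intro v hv
  set v₀ : Fin m ⊕ Fin m → F := eL ⟨0, by omega⟩ with hv₀
  have hv₀0 : v₀ ≠ 0 := eL_ne
  obtain ⟨g₀, hg₀⟩ := hα v₀ hv₀0
  obtain ⟨g, hg⟩ := hβ v hv
  choose b hb using hg₀
  choose b' hb' using hg
  have hbinj : Function.Injective b := by
    intro c d hcd
    have h1 : α (tb v₀ c) = α (tb v₀ d) := by rw [hb, hb, hcd]
    exact tb_injective hm hv₀0 (α.injective h1)
  have hbs : Function.Surjective b := Finite.injective_iff_surjective.mp hbinj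
  set Y : Cfsg.PSp m F := (QuotientGroup.mk g : Cfsg.PSp m F) * (QuotientGroup.mk g₀)⁻¹ with hY
  obtain ⟨y₀, hy₀⟩ := QuotientGroup.mk_surjective (α⁻¹ Y)
  refine ⟨y₀ • v₀, ?_, fun c => ?_⟩
  · intro h0
    apply hv₀0
    have := congrArg (fun x => y₀⁻¹ • x) h0
    simpa using this
  · obtain ⟨c', hc'⟩ := hbs (b' c)
    refine ⟨c', ?_⟩
    rw [← tb_conj, hy₀]
    change α⁻¹ (β (tb v c)) = _
    have h1 : β (tb v c) = Y * α (tb v₀ c') * Y⁻¹ := by
      rw [hb' c, hb c', hc', hY]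
      group
    rw [h1, map_mul, map_mul, map_inv]
    have e : α⁻¹ (α (tb v₀ c')) = tb v₀ c' := α.symm_apply_apply _
    rw [e]

/-- The order of the automorphism group of `PSp_4(2^f)`. -/
theorem card_aut_two [Fintype F] {f : ℕ} (hf : 1 ≤ f) (hF : Fintype.card F = 2 ^ f) (h2 : (2 : F) = 0)
    (hF3 : 3 ≤ Fintype.card F) :
    Nat.card (MulAut (Cfsg.PSp 2 F)) = 2 * (Nat.card (Sp (Fin 2) F) * f) := by
  haveI : Fact (Nat.Prime 2) := ⟨Nat.prime_two⟩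
  obtain ⟨α, v₁, c₁, hα⟩ := exists_graph_aut h2 hF3
  have hB : ∀ v : Fin 2 ⊕ Fin 2 → F, v ≠ 0 → ∃ g : Sp (Fin 2) F, ∀ c : F, ∃ b : F, α (tb v c) =
      (QuotientGroup.mk g : Cfsg.PSp 2 F) * sb (eL ⟨0, by omega⟩) (eL ⟨1, by omega⟩) b * (QuotientGroup.mk g)⁻¹ := by
    rcases dich hf hF h2 le_rfl α with hr | hb
    · exfalso
      by_cases hv₁ : v₁ = 0
      · subst hv₁
        apply hα 0 0
        rw [tb, T_zero_left, tb, T_zero_left]
        exact map_one α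
      · obtain ⟨w, -, hw⟩ := hr v₁ hv₁
        obtain ⟨a, ha⟩ := hw c₁
        exact hα w a ha
    · exact hb
  refine card_of_index_two hf hF le_rfl α ?_ ?_
  · rintro G σ rfl
    apply hα ((G.1.1) *ᵥ fm σ v₁) (σ c₁ * ((mu G : Fˣ) : F)⁻¹)
    exact gsAut_tb G σ v₁ c₁
  · intro β
    rcases dich hf hF h2 le_rfl β with hr | hb
    · left
      obtain ⟨G, σ, hG, hGi⟩ := exists_induced_of_root le_rfl β hr
      exact ⟨⟨G, hG⟩, σ, (isInduced_iff ⟨G, hG⟩ σ β).mp hGi⟩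
    · right
      obtain ⟨G, σ, hG, hGi⟩ := exists_induced_of_root le_rfl (α⁻¹ * β : MulAut (Cfsg.PSp 2 F))
        (root_of_two_B le_rfl α β hB hb)
      exact ⟨⟨G, hG⟩, σ, (isInduced_iff ⟨G, hG⟩ σ _).mp hGi⟩

end Cfsg.Agent.Lib.AutPSp
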